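import Mathlib
import Cfsg.Agent.H849.RIM.DzCount

/-!
# S4816: central extensions of `A₇` by a group of order 3 have, over every character of the kernel, an irreducible character
of degree divisible by 7 (helper266)
-/

set_option autoImplicit false
set_option maxRecDepth 100000

namespace Cfsg.Agent.H266.RIM

open Subgroup Equiv
open Cfsg Cfsg.Agent.H622.Over Cfsg.Agent.H849.RIM

universe u

abbrev A := alternatingGroup (Fin 7)

def cp : Perm (Fin 7) := finRotate 7

def cA : A := ⟨cp, by rw [Equiv.Perm.mem_alternatingGroup]; decide⟩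

theorem cA_pow : cA ^ 7 = 1 := by
  apply Subtype.ext
  change cp ^ 7 = 1
  decide +kernel

theorem cA_ne : cA ≠ 1 := by
  intro h
  have h1 : cp = 1 := congrArg Subtype.val h
  exact absurd h1 (by decide)

theorem orderOf_cA : orderOf cA = 7 := by
  have : Fact (Nat.Prime 7) := ⟨by norm_num⟩
  exact orderOf_eq_prime cA_pow cA_ne

theorem card_A : Nat.card A = 2520 := by
  rw [nat_card_alternatingGroup, Nat.card_eq_fintype_card, Fintype.card_fin]
  rfl

theorem cp_zero : ∀ a : Fin 7, ∃ k : Fin 7, (cp ^ (k : ℕ)) 0 = a := by decide +kernel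

theorem cent_inj {σ τ : Perm (Fin 7)} (hσ : σ * cp = cp * σ) (hτ : τ * cp = cp * τ) (h : σ 0 = τ 0) : σ = τ := by
  ext a
  obtain ⟨k, rfl⟩ := cp_zero a
  have h1 : σ * cp ^ (k : ℕ) = cp ^ (k : ℕ) * σ := (Commute.pow_right (show Commute σ cp from hσ) _)
  have h2 : τ * cp ^ (k : ℕ) = cp ^ (k : ℕ) * τ := (Commute.pow_right (show Commute τ cp from hτ) _)
  have h3 : σ ((cp ^ (k : ℕ)) 0) = (cp ^ (k : ℕ)) (σ 0) := congrArg (fun f : Perm (Fin 7) => f 0) h1
  have h4 : τ ((cp ^ (k : ℕ)) 0) = (cp ^ (k : ℕ)) (τ 0) := congrArg (fun f : Perm (Fin 7) => f 0) h2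
  rw [h3, h4, h]

theorem card_cent_cA : Nat.card (centralizer ({cA} : Set A)) = 7 := by
  refine le_antisymm ?_ ?_
  · let f : centralizer ({cA} : Set A) → Fin 7 := fun g => (g.1.1 : Perm (Fin 7)) 0
    have hf : Function.Injective f := by
      intro a b hab
      apply Subtype.ext
      apply Subtype.ext
      refine cent_inj ?_ ?_ hab
      · exact congrArg Subtype.val (mem_centralizer_singleton_iff.1 a.2)
      · exact congrArg Subtype.val (mem_centralizer_singleton_iff.1 b.2)
    have := Nat.card_le_card_of_injective f hf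
    rwa [Nat.card_eq_fintype_card (α := Fin 7), Fintype.card_fin] at this
  · have h1 : zpowers cA ≤ centralizer ({cA} : Set A) := by
      rw [zpowers_le, mem_centralizer_singleton_iff]
    have h2 := card_le_of_le h1
    rwa [Nat.card_zpowers, orderOf_cA] at h2

theorem card_norm_cA : Nat.card (normalizer ((zpowers cA : Subgroup A) : Set A)) = 21 := by
  have h7 : Fact (Nat.Prime 7) := ⟨by norm_num⟩
  have hf : (Nat.card A).factorization 7 = 1 := by
    rw [card_A, show 2520 = 2 ^ 3 * 3 ^ 2 * 5 * 7 by norm_num]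
    rw [Nat.factorization_mul (by norm_num) (by norm_num), Nat.factorization_mul (by norm_num) (by norm_num),
      Nat.factorization_mul (by norm_num) (by norm_num), Nat.factorization_pow, Nat.factorization_pow]
    simp [Nat.Prime.factorization Nat.prime_two, Nat.Prime.factorization Nat.prime_three,
      Nat.Prime.factorization Nat.prime_five, Nat.Prime.factorization h7.out]
  have c1 : Nat.card (zpowers cA) = 7 ^ (Nat.card A).factorization 7 := by
    rw [Nat.card_zpowers, orderOf_cA, hf, pow_one]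
  let P : Sylow 7 A := Sylow.ofCard _ c1
  have hP : (P : Subgroup A) = zpowers cA := rfl
  have h1 : Nat.card (Sylow 7 A) = (normalizer ((P : Subgroup A) : Set A)).index := P.card_eq_index_normalizer
  rw [hP] at h1
  have h2 : Nat.card (Sylow 7 A) ≡ 1 [MOD 7] := card_sylow_modEq_one 7 A
  have h5 := (normalizer ((zpowers cA : Subgroup A) : Set A)).card_mul_index
  rw [card_A, ← h1] at h5
  have hcent : Nat.card (centralizer ((zpowers cA : Subgroup A) : Set A)) = 7 := by
    rw [zpowers_eq_closure, centralizer_closure, card_cent_cA]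
  have k1 := (zpowers cA).normalizerMonoidHom_ker
  have k2 := card_mul_index (zpowers cA).normalizerMonoidHom.ker
  have k3 : (zpowers cA).normalizerMonoidHom.ker.index ≤ 6 := by
    rw [index_ker]
    refine (card_le_card_group _).trans ?_
    rw [IsCyclic.card_mulAut, Nat.card_zpowers, orderOf_cA]
    decide
  have hle : centralizer ((zpowers cA : Subgroup A) : Set A) ≤ normalizer ((zpowers cA : Subgroup A) : Set A) :=
    centralizer_le_normalizer _
  have k4 : Nat.card (zpowers cA).normalizerMonoidHom.ker = 7 := by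
    rw [k1, Nat.card_congr (subgroupOfEquivOfLe hle).toEquiv, hcent]
  rw [k4] at k2
  generalize Nat.card (Sylow 7 A) = n at h2 h5
  generalize (zpowers cA).normalizerMonoidHom.ker.index = w at k2 k3
  rw [← k2] at h5 ⊢
  have h6 : w = 0 ∨ w = 1 ∨ w = 2 ∨ w = 3 ∨ w = 4 ∨ w = 5 ∨ w = 6 := by omega
  unfold Nat.ModEq at h2
  rcases h6 with rfl | rfl | rfl | rfl | rfl | rfl | rfl <;> omega

/-- the two classes of elements of order 7 -/
theorem not_conj_inv : ¬ IsConj cA cA⁻¹ := by
  intro h
  obtain ⟨g, hg⟩ := isConj_iff.1 h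
  have hn : g ∈ normalizer ((zpowers cA : Subgroup A) : Set A) := by
    refine mem_normalizer_fintype fun n hn => ?_
    obtain ⟨i, rfl⟩ := mem_powers_iff_mem_zpowers.2 hn
    show g * cA ^ i * g⁻¹ ∈ (zpowers cA : Subgroup A)
    rw [← conj_pow, hg]
    exact pow_mem (inv_mem (mem_zpowers cA)) i
  have h1 : orderOf (⟨g, hn⟩ : normalizer ((zpowers cA : Subgroup A) : Set A)) ∣ 21 := by
    rw [← card_norm_cA]
    exact orderOf_dvd_natCard _
  rw [← orderOf_submonoid] at h1
  have hg' : g ^ 21 = 1 := orderOf_dvd_iff_pow_eq_one.1 h1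
  -- `g ^ 21` inverts `cA`
  have key : ∀ n : ℕ, g ^ (2 * n + 1) * cA * (g ^ (2 * n + 1))⁻¹ = cA⁻¹ := by
    intro n
    induction n with
    | zero => simpa using hg
    | succ n ih =>
      have e1 : g ^ (2 * (n + 1) + 1) = g * (g * g ^ (2 * n + 1)) := by
        rw [← pow_succ', ← pow_succ']
        congr 1
      rw [e1]
      calc g * (g * g ^ (2 * n + 1)) * cA * (g * (g * g ^ (2 * n + 1)))⁻¹
          = g * (g * (g ^ (2 * n + 1) * cA * (g ^ (2 * n + 1))⁻¹) * g⁻¹) * g⁻¹ := by group
        _ = g * (g * cA⁻¹ * g⁻¹) * g⁻¹ := by rw [ih]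
        _ = g * (g * cA * g⁻¹)⁻¹ * g⁻¹ := by group
        _ = g * cA * g⁻¹ := by rw [hg, inv_inv]; exact hg
        _ = cA⁻¹ := hg
  have h2 := key 10
  rw [show 2 * 10 + 1 = 21 by norm_num, hg'] at h2
  have h3 : cA ^ 2 = 1 := by
    have h4 : cA = cA⁻¹ := by simpa using h2
    rw [pow_two]
    nth_rewrite 1 [h4]
    exact inv_mul_cancel cA
  have h4 := orderOf_dvd_of_pow_eq_one h3
  rw [orderOf_cA] at h4
  omega

/-! ### the classes of order prime to 3 -/

def p2 : Perm (Fin 7) := swap 0 1 * swap 2 3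
def p4 : Perm (Fin 7) := swap 0 1 * (swap 1 2 * (swap 2 3 * swap 4 5))
def p5 : Perm (Fin 7) := swap 0 1 * (swap 1 2 * (swap 2 3 * swap 3 4))

def a2 : A := ⟨p2, by rw [Equiv.Perm.mem_alternatingGroup]; decide⟩
def a4 : A := ⟨p4, by rw [Equiv.Perm.mem_alternatingGroup]; decide⟩
def a5 : A := ⟨p5, by rw [Equiv.Perm.mem_alternatingGroup]; decide⟩

theorem orderOf_a2 : orderOf a2 = 2 := by
  have h : Fact (Nat.Prime 2) := ⟨by norm_num⟩
  refine orderOf_eq_prime (Subtype.ext ?_) fun h => ?_
  · change p2 ^ 2 = 1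
    decide +kernel
  · have h1 : p2 = 1 := congrArg Subtype.val h
    exact absurd h1 (by decide)

theorem orderOf_a5 : orderOf a5 = 5 := by
  have h : Fact (Nat.Prime 5) := ⟨by norm_num⟩
  refine orderOf_eq_prime (Subtype.ext ?_) fun h => ?_
  · change p5 ^ 5 = 1
    decide +kernel
  · have h1 : p5 = 1 := congrArg Subtype.val h
    exact absurd h1 (by decide)

theorem orderOf_a4 : orderOf a4 = 4 := by
  have h : Fact (Nat.Prime 2) := ⟨by norm_num⟩
  refine orderOf_eq_prime_pow (p := 2) (n := 1) (fun h => ?_) (Subtype.ext ?_)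
  · have h1 : p4 ^ 2 = 1 := congrArg Subtype.val h
    exact absurd h1 (by decide +kernel)
  · change p4 ^ 4 = 1
    decide +kernel

theorem not_conj_of_order {G : Type*} [Group G] {a b : G} (h : orderOf a ≠ orderOf b) : ¬ IsConj a b := by
  intro hc
  obtain ⟨c, rfl⟩ := isConj_iff.1 hc
  exact h ((MulAut.conj c).orderOf_eq a).symm

theorem exists_F {m : ℕ} (h2 : Nat.Coprime 2 m) (h5 : Nat.Coprime 5 m) (h7 : Nat.Coprime 7 m) {T : Type*} [Group T] (e : A ≃* T) :
    ∃ F : Finset (ConjClasses T), F.card = 6 ∧ ∀ C ∈ F, ∃ g : T, ConjClasses.mk g = C ∧ (orderOf g).Coprime m := by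
  classical
  have hinj : ∀ a b : A, ¬ IsConj a b → ConjClasses.mk (e a) ≠ ConjClasses.mk (e b) := by
    intro a b h h1
    rw [ConjClasses.mk_eq_mk_iff_isConj] at h1
    obtain ⟨c, hc⟩ := isConj_iff.1 h1
    exact h (isConj_iff.2 ⟨e.symm c, e.injective (by simpa using hc)⟩)
  have o1 : orderOf (1 : A) = 1 := orderOf_one
  have o7 : orderOf cA⁻¹ = 7 := by rw [orderOf_inv, orderOf_cA]
  refine ⟨{ConjClasses.mk (e 1), ConjClasses.mk (e a2), ConjClasses.mk (e a4), ConjClasses.mk (e a5),
    ConjClasses.mk (e cA), ConjClasses.mk (e cA⁻¹)}, ?_, ?_⟩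
  · rw [Finset.card_insert_of_notMem, Finset.card_insert_of_notMem, Finset.card_insert_of_notMem,
      Finset.card_insert_of_notMem, Finset.card_insert_of_notMem, Finset.card_singleton]
    · rw [Finset.mem_singleton]
      exact hinj _ _ not_conj_inv
    · simp only [Finset.mem_insert, Finset.mem_singleton, not_or]
      exact ⟨hinj _ _ (not_conj_of_order (by rw [orderOf_a5, orderOf_cA]; norm_num)),
        hinj _ _ (not_conj_of_order (by rw [orderOf_a5, o7]; norm_num))⟩
    · simp only [Finset.mem_insert, Finset.mem_singleton, not_or]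
      exact ⟨hinj _ _ (not_conj_of_order (by rw [orderOf_a4, orderOf_a5]; norm_num)),
        hinj _ _ (not_conj_of_order (by rw [orderOf_a4, orderOf_cA]; norm_num)),
        hinj _ _ (not_conj_of_order (by rw [orderOf_a4, o7]; norm_num))⟩
    · simp only [Finset.mem_insert, Finset.mem_singleton, not_or]
      exact ⟨hinj _ _ (not_conj_of_order (by rw [orderOf_a2, orderOf_a4]; norm_num)),
        hinj _ _ (not_conj_of_order (by rw [orderOf_a2, orderOf_a5]; norm_num)),
        hinj _ _ (not_conj_of_order (by rw [orderOf_a2, orderOf_cA]; norm_num)),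
        hinj _ _ (not_conj_of_order (by rw [orderOf_a2, o7]; norm_num))⟩
    · simp only [Finset.mem_insert, Finset.mem_singleton, not_or]
      exact ⟨hinj _ _ (not_conj_of_order (by rw [o1, orderOf_a2]; norm_num)),
        hinj _ _ (not_conj_of_order (by rw [o1, orderOf_a4]; norm_num)),
        hinj _ _ (not_conj_of_order (by rw [o1, orderOf_a5]; norm_num)),
        hinj _ _ (not_conj_of_order (by rw [o1, orderOf_cA]; norm_num)),
        hinj _ _ (not_conj_of_order (by rw [o1, o7]; norm_num))⟩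
  · intro C hC
    simp only [Finset.mem_insert, Finset.mem_singleton] at hC
    rcases hC with rfl | rfl | rfl | rfl | rfl | rfl
    · exact ⟨_, rfl, by rw [e.orderOf_eq, o1]; exact Nat.coprime_one_left m⟩
    · exact ⟨_, rfl, by rw [e.orderOf_eq, orderOf_a2]; exact h2⟩
    · exact ⟨_, rfl, by rw [e.orderOf_eq, orderOf_a4]; exact Nat.Coprime.pow_left 2 h2⟩
    · exact ⟨_, rfl, by rw [e.orderOf_eq, orderOf_a5]; exact h5⟩
    · exact ⟨_, rfl, by rw [e.orderOf_eq, orderOf_cA]; exact h7⟩
    · exact ⟨_, rfl, by rw [e.orderOf_eq, o7]; exact h7⟩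

theorem card_cent_congr {S T : Type*} [Group S] [Group T] (e : S ≃* T) (y : S) :
    Nat.card (centralizer ({e y} : Set T)) = Nat.card (centralizer ({y} : Set S)) := by
  refine (Nat.card_congr (e.toEquiv.subtypeEquiv ?_)).symm
  intro x
  rw [mem_centralizer_singleton_iff, mem_centralizer_singleton_iff]
  show x * y = y * x ↔ e x * e y = e y * e x
  rw [← map_mul, ← map_mul, e.injective.eq_iff]

theorem card_norm_congr {S T : Type*} [Group S] [Group T] (e : S ≃* T) (y : S) :
    Nat.card (normalizer ((zpowers (e y) : Subgroup T) : Set T)) =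
      Nat.card (normalizer ((zpowers y : Subgroup S) : Set S)) := by
  refine (Nat.card_congr (e.toEquiv.subtypeEquiv ?_)).symm
  intro x
  have h1 : (zpowers (e y) : Subgroup T) = (zpowers y).map e.toMonoidHom := by
    rw [MonoidHom.map_zpowers]; rfl
  rw [h1]
  rw [Subgroup.mem_normalizer_iff, Subgroup.mem_normalizer_iff]
  constructor
  · intro h n
    show n ∈ (zpowers y).map e.toMonoidHom ↔ e x * n * (e x)⁻¹ ∈ (zpowers y).map e.toMonoidHom
    obtain ⟨n, rfl⟩ := e.surjective n
    have h2 : e x * e n * (e x)⁻¹ = e.toMonoidHom (x * n * x⁻¹) := by simp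
    rw [h2, Subgroup.mem_map_iff_mem (f := e.toMonoidHom) e.injective]
    have h3 : e n = e.toMonoidHom n := rfl
    rw [h3, Subgroup.mem_map_iff_mem (f := e.toMonoidHom) e.injective]
    exact h n
  · intro h n
    have h2 := h (e n)
    have h3 : e.toEquiv x * e n * (e.toEquiv x)⁻¹ = e.toMonoidHom (x * n * x⁻¹) := by simp
    rw [h3, Subgroup.mem_map_iff_mem (f := e.toMonoidHom) e.injective] at h2
    have h4 : e n = e.toMonoidHom n := rfl
    rw [h4, Subgroup.mem_map_iff_mem (f := e.toMonoidHom) e.injective] at h2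
    exact h2

/-- **Extensions of `A₇` by a central group of order prime to `2`, `5`, `7`.** -/
theorem exists_seven {G : Type u} [Group G] [Finite G] {Z : Subgroup G} [Z.Normal] (hZ : Z ≤ center G)
    (h2 : Nat.Coprime 2 (Nat.card Z)) (h5 : Nat.Coprime 5 (Nat.card Z)) (h7 : Nat.Coprime 7 (Nat.card Z)) (e : A ≃* G ⧸ Z) (c : Z →* ℂˣ) :
    ∃ χ : IrrCharacter G, Lies Z c (χ : G → ℂ) ∧ 7 ∣ charDegree (χ : G → ℂ) := by
  have hp : Fact (Nat.Prime 7) := ⟨by norm_num⟩
  obtain ⟨F, hF1, hF2⟩ := exists_F h2 h5 h7 e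
  refine exists_dz_quot (p := 7) hZ ?_ ?_ (y := e cA) ?_ (k := 1) (w := 3) ?_ ?_ c F hF2 ?_
  · exact (Nat.Prime.coprime_iff_not_dvd (by norm_num)).1 h7
  · rw [← Nat.card_congr e.toEquiv, card_A]
    norm_num
  · rw [e.orderOf_eq, orderOf_cA]
  · rw [card_cent_congr, card_cent_cA]
  · rw [card_norm_congr, card_norm_cA]
  · rw [hF1]
    norm_num

end Cfsg.Agent.H266.RIM
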